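import Cfsg.Agent.H29.Mat

set_option autoImplicit false
set_option maxRecDepth 100000
set_option linter.style.haveILetI false
set_option linter.unusedVariables false
set_option linter.style.longLine false
set_option linter.unusedTactic false
set_option linter.unreachableTactic false

namespace H29

noncomputable def a13_2_mul (A B : ℕ) : ℕ :=
  redP (nat_lit 13) (nat_lit 79) (nat_lit 10) (nat_lit 0x3e007c00f801f) (Nat.add (Nat.add (nat_lit 0)
    (Nat.mul (Nat.land (Nat.shiftRight B (nat_lit 0)) (nat_lit 0x1fffc0007fff)) (Nat.land (Nat.shiftRight A (nat_lit 0)) (nat_lit 0x3fffffff))))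
    (Nat.mul (Nat.land (Nat.shiftRight B (nat_lit 15)) (nat_lit 0x1fffc0007fff)) (Nat.land (Nat.shiftRight A (nat_lit 30)) (nat_lit 0x3fffffff))))

theorem a13_2_eq (A B : ℕ) : a13_2_mul A B = redP 13 79 10 (nat_lit 0x3e007c00f801f) (mulNa 15 30 (nat_lit 0x1fffc0007fff) (nat_lit 0x3fffffff) A B 2) := by
  rfl

noncomputable def a13_2 : Ar 13 2 :=
  Ar.gen 13 2 15 79 10 (nat_lit 0x200000000001) 30 (nat_lit 0x1fffc0007fff) (nat_lit 0x3fffffff) (nat_lit 0x3e007c00f801f) a13_2_mul (by decide +kernel) (by decide +kernel)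
    (by decide +kernel) (by decide +kernel) (by decide +kernel) (by decide +kernel) (by decide +kernel)
    (by decide +kernel) (by decide +kernel) (by decide +kernel) a13_2_eq

end H29
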