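import Cfsg.Agent.H29.Mat

set_option autoImplicit false
set_option maxRecDepth 100000
set_option linter.style.haveILetI false
set_option linter.unusedVariables false
set_option linter.style.longLine false
set_option linter.unusedTactic false
set_option linter.unreachableTactic false

namespace H29

noncomputable def a2_8_mul (A B : ℕ) : ℕ :=
  Nat.xor (Nat.xor (Nat.xor (Nat.xor (Nat.xor (Nat.xor (Nat.xor (Nat.xor (nat_lit 0)
    (Nat.mul (Nat.land (Nat.shiftRight B (nat_lit 0)) (nat_lit 0x101010101010101)) (Nat.land (Nat.shiftRight A (nat_lit 0)) (nat_lit 0xff))))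
    (Nat.mul (Nat.land (Nat.shiftRight B (nat_lit 1)) (nat_lit 0x101010101010101)) (Nat.land (Nat.shiftRight A (nat_lit 8)) (nat_lit 0xff))))
    (Nat.mul (Nat.land (Nat.shiftRight B (nat_lit 2)) (nat_lit 0x101010101010101)) (Nat.land (Nat.shiftRight A (nat_lit 16)) (nat_lit 0xff))))
    (Nat.mul (Nat.land (Nat.shiftRight B (nat_lit 3)) (nat_lit 0x101010101010101)) (Nat.land (Nat.shiftRight A (nat_lit 24)) (nat_lit 0xff))))
    (Nat.mul (Nat.land (Nat.shiftRight B (nat_lit 4)) (nat_lit 0x101010101010101)) (Nat.land (Nat.shiftRight A (nat_lit 32)) (nat_lit 0xff))))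
    (Nat.mul (Nat.land (Nat.shiftRight B (nat_lit 5)) (nat_lit 0x101010101010101)) (Nat.land (Nat.shiftRight A (nat_lit 40)) (nat_lit 0xff))))
    (Nat.mul (Nat.land (Nat.shiftRight B (nat_lit 6)) (nat_lit 0x101010101010101)) (Nat.land (Nat.shiftRight A (nat_lit 48)) (nat_lit 0xff))))
    (Nat.mul (Nat.land (Nat.shiftRight B (nat_lit 7)) (nat_lit 0x101010101010101)) (Nat.land (Nat.shiftRight A (nat_lit 56)) (nat_lit 0xff)))

theorem a2_8_eq (A B : ℕ) : a2_8_mul A B = mul2a 8 (nat_lit 0x101010101010101) (nat_lit 0xff) A B 8 := by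
  rfl

noncomputable def a2_8 : Ar 2 8 :=
  Ar.two 8 (nat_lit 0x8040201008040201) (nat_lit 0x101010101010101) (nat_lit 0xff) a2_8_mul (by decide +kernel) (by decide +kernel)
    (by decide +kernel) (by decide +kernel) a2_8_eq

end H29
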