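import Cfsg.Agent.H29.AltM
import Cfsg.Agent.H29.A2x8

set_option autoImplicit false
set_option maxRecDepth 100000
set_option linter.style.haveILetI false
set_option linter.unusedVariables false
set_option linter.style.longLine false
set_option linter.unusedTactic false
set_option linter.unreachableTactic false

namespace H29

noncomputable def alt8_g : List ℕ := [nat_lit 0x8040201008010402, nat_lit 0x280402010080401]
noncomputable def alt8v1_key : ℕ → ℕ := keyP a2_8.mul (nat_lit 0x1) (nat_lit 256)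
noncomputable def alt8v1_fix : ℕ → Bool := fixP a2_8.mul (nat_lit 0x1)
noncomputable def alt8vT1_g : List ℕ := [nat_lit 0x8040201008010402, nat_lit 0x280402010080401]
noncomputable def alt8vT1_key : ℕ → ℕ := keyT a2_8.mul alt8v1_key (nat_lit 0x8040201008040201) (nat_lit 0)
noncomputable def alt8vT1_kt : ℕ → ℕ := pget (nat_lit 0x8141211109050300) (nat_lit 8) (nat_lit 0xff)
noncomputable def alt8vT1_bt : ℕ → ℕ := pget (nat_lit 0x1f0) (nat_lit 3) (nat_lit 0x7)
noncomputable def alt8vT1 : LvD where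
  n := nat_lit 8
  g := alt8vT1_g
  T := [nat_lit 0x8040201008010402, nat_lit 0x280402010080401, nat_lit 0x8040201008020104, nat_lit 0x402804020100801, nat_lit 0x1008040280402001, nat_lit 0x4020100804028001]
  ab := nat_lit 0x4003003003001001000000000000000000
  ia := nat_lit 0x5001002000
  ib := nat_lit 0x2002002002002002002002002002002002002002002002002002002002002002002002002002002002002002002002002002002002002002002002002002002002002002002002002002002002002002002002002002002002001005000002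
  ent := pget (nat_lit 0x2185c30f0623083410401040008000) (nat_lit 15) (nat_lit 0x7fff)
  key := alt8vT1_key
  ks := alt8vT1_kt
  loc := locB alt8vT1_key alt8vT1_kt alt8vT1_bt (nat_lit 6)

noncomputable def alt8vT1_fix : ℕ → Bool := fixT a2_8.mul alt8v1_fix (nat_lit 0x8040201008040201) (nat_lit 0x8040201008040201)

noncomputable def alt8vT2_g : List ℕ := [nat_lit 0x480402010020801, nat_lit 0x4020100804028001]
noncomputable def alt8vT2_key : ℕ → ℕ := keyT a2_8.mul alt8v1_key (nat_lit 0x8040201008010402) (nat_lit 3)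
noncomputable def alt8vT2_kt : ℕ → ℕ := pget (nat_lit 0x824222120a0600) (nat_lit 8) (nat_lit 0xff)
noncomputable def alt8vT2_bt : ℕ → ℕ := pget (nat_lit 0x1a8) (nat_lit 3) (nat_lit 0x7)
noncomputable def alt8vT2 : LvD where
  n := nat_lit 7
  g := alt8vT2_g
  T := [nat_lit 0x480402010020801, nat_lit 0x4020100804028001, nat_lit 0x204804020081001, nat_lit 0x1008020480204001, nat_lit 0x4020100802800401, nat_lit 0x2010080402804001, nat_lit 0x804028040201001, nat_lit 0x280402010080401]
  ab := nat_lit 0x6005005005001001003002002002000000000000000000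
  ia := nat_lit 0x7001004000
  ib := nat_lit 0x4004004004004004004004004004004004004004004004004004004004004004004004004004004004004004004004004004004004004004004004004004004004004004004004004004004004004004004004004004004004001007000004
  ent := pget (nat_lit 0x2070213003400400040208000) (nat_lit 15) (nat_lit 0x7fff)
  key := alt8vT2_key
  ks := alt8vT2_kt
  loc := locB alt8vT2_key alt8vT2_kt alt8vT2_bt (nat_lit 6)

noncomputable def alt8vT2_fix : ℕ → Bool := fixT a2_8.mul alt8v1_fix (nat_lit 0x8040201008010402) (nat_lit 0x8040201008020104)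

noncomputable def alt8vT3_g : List ℕ := [nat_lit 0x2010080480400201, nat_lit 0x8040200410080201]
noncomputable def alt8vT3_key : ℕ → ℕ := keyT a2_8.mul alt8v1_key (nat_lit 0x8040201008020104) (nat_lit 5)
noncomputable def alt8vT3_kt : ℕ → ℕ := pget (nat_lit 0x844424140c00) (nat_lit 8) (nat_lit 0xff)
noncomputable def alt8vT3_bt : ℕ → ℕ := pget (nat_lit 0x160) (nat_lit 3) (nat_lit 0x7)
noncomputable def alt8vT3 : LvD where
  n := nat_lit 6
  g := alt8vT3_g
  T := [nat_lit 0x2010080480400201, nat_lit 0x8040200410080201, nat_lit 0x804804020100201, nat_lit 0x8040200804100201]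
  ab := nat_lit 0x1001000000000000000000
  ia := nat_lit 0x3001002000
  ib := nat_lit 0x2002002002002002002002002002002002002002002002002002002002002002002002002002002002002002002002002002002002002002002002002002002002002002002002002002002002002002002002002002002002001003000002
  ent := pget (nat_lit 0x20040018210104102000) (nat_lit 13) (nat_lit 0x1fff)
  key := alt8vT3_key
  ks := alt8vT3_kt
  loc := locB alt8vT3_key alt8vT3_kt alt8vT3_bt (nat_lit 6)

noncomputable def alt8vT3_fix : ℕ → Bool := fixT a2_8.mul alt8v1_fix (nat_lit 0x8040201008020104) (nat_lit 0x8040201008010402)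

noncomputable def alt8vT4_g : List ℕ := [nat_lit 0x2010088040040201, nat_lit 0x1080204008040201]
noncomputable def alt8vT4_key : ℕ → ℕ := keyT a2_8.mul alt8v1_key (nat_lit 0x804028040100120) (nat_lit 33)
noncomputable def alt8vT4_kt : ℕ → ℕ := pget (nat_lit 0xa060302800) (nat_lit 8) (nat_lit 0xff)
noncomputable def alt8vT4_bt : ℕ → ℕ := pget (nat_lit 0x20) (nat_lit 3) (nat_lit 0x7)
noncomputable def alt8vT4 : LvD where
  n := nat_lit 5
  g := alt8vT4_g
  T := [nat_lit 0x2010088040040201, nat_lit 0x1080204008040201, nat_lit 0x880402010040201, nat_lit 0x1008804020040201, nat_lit 0x4010208008040201]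
  ab := nat_lit 0x1001002002000000000000000000
  ia := nat_lit 0x4001003000
  ib := nat_lit 0x3003003003003003003003003003003003003003003003003003003003003003003003003003003003003003003003003003003003003003003003003003003003003003003003003003003003003003003003003003003003001004000003
  ent := pget (nat_lit 0x41200501080008000) (nat_lit 15) (nat_lit 0x7fff)
  key := alt8vT4_key
  ks := alt8vT4_kt
  loc := locB alt8vT4_key alt8vT4_kt alt8vT4_bt (nat_lit 7)

noncomputable def alt8vT4_fix : ℕ → Bool := fixT a2_8.mul alt8v1_fix (nat_lit 0x804028040100120) (nat_lit 0x1008010480402002)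

noncomputable def alt8vT5_g : List ℕ := [nat_lit 0x4080200810040201, nat_lit 0x1080204008040201]
noncomputable def alt8vT5_key : ℕ → ℕ := keyT a2_8.mul alt8v1_key (nat_lit 0x2010080402400180) (nat_lit 129)
noncomputable def alt8vT5_kt : ℕ → ℕ := pget (nat_lit 0xc0908800) (nat_lit 8) (nat_lit 0xff)
noncomputable def alt8vT5_bt : ℕ → ℕ := pget (nat_lit 0x2) (nat_lit 1) (nat_lit 0x1)
noncomputable def alt8vT5 : LvD where
  n := nat_lit 4
  g := alt8vT5_g
  T := [nat_lit 0x4080200810040201, nat_lit 0x1080204008040201, nat_lit 0x4010208008040201, nat_lit 0x840208010040201, nat_lit 0x1040200880040201]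
  ab := nat_lit 0x2001000001001000000000000
  ia := nat_lit 0x3002001000
  ib := nat_lit 0x4001002000
  ent := pget (nat_lit 0x141c100) (nat_lit 8) (nat_lit 0xff)
  key := alt8vT5_key
  ks := alt8vT5_kt
  loc := locB alt8vT5_key alt8vT5_kt alt8vT5_bt (nat_lit 7)

noncomputable def alt8vT5_fix : ℕ → Bool := fixT a2_8.mul alt8v1_fix (nat_lit 0x2010080402400180) (nat_lit 0x104804020100802)

noncomputable def alt8vT6_g : List ℕ := [nat_lit 0x8008204010040201]
noncomputable def alt8vT6_key : ℕ → ℕ := keyT a2_8.mul alt8v1_key (nat_lit 0x402804020080110) (nat_lit 17)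
noncomputable def alt8vT6_kt : ℕ → ℕ := pget (nat_lit 0x140c00) (nat_lit 7) (nat_lit 0x7f)
noncomputable def alt8vT6_bt : ℕ → ℕ := pget (nat_lit 0x0) (nat_lit 1) (nat_lit 0x1)
noncomputable def alt8vT6 : LvD where
  n := nat_lit 3
  g := alt8vT6_g
  T := [nat_lit 0x8008204010040201, nat_lit 0x8010200840040201]
  ab := nat_lit 0x0
  ia := nat_lit 0x1000
  ib := nat_lit 0x1001001001001001001001001001001001001001001001001001001001001001001001001001001001001001001001001001001001001001001001001001001001001001001001001001001001001001001001001001001001001001000001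
  ent := pget (nat_lit 0x6080) (nat_lit 7) (nat_lit 0x7f)
  key := alt8vT6_key
  ks := alt8vT6_kt
  loc := locB alt8vT6_key alt8vT6_kt alt8vT6_bt (nat_lit 7)

noncomputable def alt8vT6_fix : ℕ → Bool := fixT a2_8.mul alt8v1_fix (nat_lit 0x402804020080110) (nat_lit 0x2010080104804002)

noncomputable def alt8vT7_g : List ℕ := []
noncomputable def alt8vT7_ls : List Lv := []
noncomputable def alt8vT6_ls : List Lv := alt8vT6.lv a2_8.mul a2_8.one :: alt8vT7_ls
noncomputable def alt8vT5_ls : List Lv := alt8vT5.lv a2_8.mul a2_8.one :: alt8vT6_ls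
noncomputable def alt8vT4_ls : List Lv := alt8vT4.lv a2_8.mul a2_8.one :: alt8vT5_ls
noncomputable def alt8vT3_ls : List Lv := alt8vT3.lv a2_8.mul a2_8.one :: alt8vT4_ls
noncomputable def alt8vT2_ls : List Lv := alt8vT2.lv a2_8.mul a2_8.one :: alt8vT3_ls
noncomputable def alt8vT1_ls : List Lv := alt8vT1.lv a2_8.mul a2_8.one :: alt8vT2_ls
noncomputable def alt8v_aux : List ℕ := [nat_lit 0x8040201008010402, nat_lit 0x280402010080401, nat_lit 0x8040201008040201, nat_lit 0x8040201008020104, nat_lit 0x804028040100120, nat_lit 0x1008010480402002, nat_lit 0x2010080402400180, nat_lit 0x104804020100802, nat_lit 0x402804020080110, nat_lit 0x2010080104804002]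
theorem alt8vT1_ok : alt8vT1.ok a2_8.mul Nat.beq a2_8.one = true := by decide +kernel
theorem alt8vT1_next : alt8vT1.nextOK a2_8.mul a2_8.one alt8vT2_g (nat_lit 0x5000000000001000001000002) = true := by decide +kernel
theorem alt8vT1_fx : allL alt8vT1_fix alt8vT2_g = true := by decide +kernel
theorem alt8vT1_k_0 : allR (kchk alt8vT1_key (alt8vT1.lv a2_8.mul a2_8.one).U alt8vT1_kt (nat_lit 8)) (nat_lit 0) (nat_lit 8) = true := by decide +kernel
theorem alt8vT1_k : ∀ j < nat_lit 8, (kchk alt8vT1_key (alt8vT1.lv a2_8.mul a2_8.one).U alt8vT1_kt (nat_lit 8)) j = true :=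
  (allR_step (c := nat_lit 8) (fun _ h => absurd h (Nat.not_lt_zero _)) alt8vT1_k_0 (by decide))

theorem alt8vT2_ok : alt8vT2.ok a2_8.mul Nat.beq a2_8.one = true := by decide +kernel
theorem alt8vT2_next : alt8vT2.nextOK a2_8.mul a2_8.one alt8vT3_g (nat_lit 0x6000001000005000001000001000000) = true := by decide +kernel
theorem alt8vT2_fx : allL alt8vT2_fix alt8vT3_g = true := by decide +kernel
theorem alt8vT2_k_0 : allR (kchk alt8vT2_key (alt8vT2.lv a2_8.mul a2_8.one).U alt8vT2_kt (nat_lit 7)) (nat_lit 0) (nat_lit 7) = true := by decide +kernel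
theorem alt8vT2_k : ∀ j < nat_lit 7, (kchk alt8vT2_key (alt8vT2.lv a2_8.mul a2_8.one).U alt8vT2_kt (nat_lit 7)) j = true :=
  (allR_step (c := nat_lit 7) (fun _ h => absurd h (Nat.not_lt_zero _)) alt8vT2_k_0 (by decide))

theorem alt8vT3_ok : alt8vT3.ok a2_8.mul Nat.beq a2_8.one = true := by decide +kernel
theorem alt8vT3_next : alt8vT3.nextOK a2_8.mul a2_8.one alt8vT4_g (nat_lit 0x3000001000003000001000001000002) = true := by decide +kernel
theorem alt8vT3_fx : allL alt8vT3_fix alt8vT4_g = true := by decide +kernel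
theorem alt8vT3_k_0 : allR (kchk alt8vT3_key (alt8vT3.lv a2_8.mul a2_8.one).U alt8vT3_kt (nat_lit 6)) (nat_lit 0) (nat_lit 6) = true := by decide +kernel
theorem alt8vT3_k : ∀ j < nat_lit 6, (kchk alt8vT3_key (alt8vT3.lv a2_8.mul a2_8.one).U alt8vT3_kt (nat_lit 6)) j = true :=
  (allR_step (c := nat_lit 6) (fun _ h => absurd h (Nat.not_lt_zero _)) alt8vT3_k_0 (by decide))

theorem alt8vT4_ok : alt8vT4.ok a2_8.mul Nat.beq a2_8.one = true := by decide +kernel
theorem alt8vT4_next : alt8vT4.nextOK a2_8.mul a2_8.one alt8vT5_g (nat_lit 0x1000000000003000001000004) = true := by decide +kernel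
theorem alt8vT4_fx : allL alt8vT4_fix alt8vT5_g = true := by decide +kernel
theorem alt8vT4_k_0 : allR (kchk alt8vT4_key (alt8vT4.lv a2_8.mul a2_8.one).U alt8vT4_kt (nat_lit 5)) (nat_lit 0) (nat_lit 5) = true := by decide +kernel
theorem alt8vT4_k : ∀ j < nat_lit 5, (kchk alt8vT4_key (alt8vT4.lv a2_8.mul a2_8.one).U alt8vT4_kt (nat_lit 5)) j = true :=
  (allR_step (c := nat_lit 5) (fun _ h => absurd h (Nat.not_lt_zero _)) alt8vT4_k_0 (by decide))

theorem alt8vT5_ok : alt8vT5.ok a2_8.mul Nat.beq a2_8.one = true := by decide +kernel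
theorem alt8vT5_next : alt8vT5.nextOK a2_8.mul a2_8.one alt8vT6_g (nat_lit 0x2000001000003) = true := by decide +kernel
theorem alt8vT5_fx : allL alt8vT5_fix alt8vT6_g = true := by decide +kernel
theorem alt8vT5_k_0 : allR (kchk alt8vT5_key (alt8vT5.lv a2_8.mul a2_8.one).U alt8vT5_kt (nat_lit 4)) (nat_lit 0) (nat_lit 4) = true := by decide +kernel
theorem alt8vT5_k : ∀ j < nat_lit 4, (kchk alt8vT5_key (alt8vT5.lv a2_8.mul a2_8.one).U alt8vT5_kt (nat_lit 4)) j = true :=
  (allR_step (c := nat_lit 4) (fun _ h => absurd h (Nat.not_lt_zero _)) alt8vT5_k_0 (by decide))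

theorem alt8vT6_ok : alt8vT6.ok a2_8.mul Nat.beq a2_8.one = true := by decide +kernel
theorem alt8vT6_next : alt8vT6.nextOK a2_8.mul a2_8.one alt8vT7_g (nat_lit 0x0) = true := by decide +kernel
theorem alt8vT6_fx : allL alt8vT6_fix alt8vT7_g = true := by decide +kernel
theorem alt8vT6_k_0 : allR (kchk alt8vT6_key (alt8vT6.lv a2_8.mul a2_8.one).U alt8vT6_kt (nat_lit 3)) (nat_lit 0) (nat_lit 3) = true := by decide +kernel
theorem alt8vT6_k : ∀ j < nat_lit 3, (kchk alt8vT6_key (alt8vT6.lv a2_8.mul a2_8.one).U alt8vT6_kt (nat_lit 3)) j = true :=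
  (allR_step (c := nat_lit 3) (fun _ h => absurd h (Nat.not_lt_zero _)) alt8vT6_k_0 (by decide))

theorem alt8v_auxok : slpR a2_8.mul a2_8.one (wdsOK a2_8.mul a2_8.one alt8v_aux [nat_lit 0x100b, nat_lit 0x100c, nat_lit 0x1, nat_lit 0x100a, nat_lit 0x100100c00b007007007, nat_lit 0x100700700700b, nat_lit 0x100100c00b007, nat_lit 0x100000300b, nat_lit 0x100a00c00c, nat_lit 0x100700700b]) (nat_lit 11) (nat_lit 0x1000004004007000002000005000005003000001000000002002000000) alt8_g = true := by decide +kernel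
theorem alt8v_low {G : Type*} [Group G] (M : Model G) (h1 : M.mul = a2_8.mul) (h2 : M.eqb = Nat.beq)
    (h3 : M.one = a2_8.one) (vv : ∀ c ∈ alt8_g, M.In ⊤ c) {St : Subgroup G} (k1 : Key M St alt8v1_key alt8v1_fix) [Finite G] :
    20160 ≤ Nat.card (M.cl alt8_g) := by
  obtain ⟨R, one, mul, eqb, a1, a2, a3⟩ := M
  dsimp only at h1 h2 h3
  subst h1 h2 h3
  set M : Model G := ⟨R, a2_8.one, a2_8.mul, Nat.beq, a1, a2, a3⟩ with hM
  have va := in_of_slpW (M := M) _ vv alt8v_auxok
  obtain ⟨talt8vT1, hTalt8vT1⟩ := exists_R va (c := (nat_lit 0x8040201008040201)) (by (try dsimp only [M]); decide +kernel)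
  have kalt8vT1 : Key M (cjS St talt8vT1) alt8vT1_key alt8vT1_fix := k1.keyT hTalt8vT1 (R_inv_of hTalt8vT1 (exists_R va (c := (nat_lit 0x8040201008040201)) (by (try dsimp only [M]); decide +kernel)) (by (try dsimp only [M]); decide +kernel)) _
  obtain ⟨talt8vT2, hTalt8vT2⟩ := exists_R va (c := (nat_lit 0x8040201008010402)) (by (try dsimp only [M]); decide +kernel)
  have kalt8vT2 : Key M (cjS St talt8vT2) alt8vT2_key alt8vT2_fix := k1.keyT hTalt8vT2 (R_inv_of hTalt8vT2 (exists_R va (c := (nat_lit 0x8040201008020104)) (by (try dsimp only [M]); decide +kernel)) (by (try dsimp only [M]); decide +kernel)) _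
  obtain ⟨talt8vT3, hTalt8vT3⟩ := exists_R va (c := (nat_lit 0x8040201008020104)) (by (try dsimp only [M]); decide +kernel)
  have kalt8vT3 : Key M (cjS St talt8vT3) alt8vT3_key alt8vT3_fix := k1.keyT hTalt8vT3 (R_inv_of hTalt8vT3 (exists_R va (c := (nat_lit 0x8040201008010402)) (by (try dsimp only [M]); decide +kernel)) (by (try dsimp only [M]); decide +kernel)) _
  obtain ⟨talt8vT4, hTalt8vT4⟩ := exists_R va (c := (nat_lit 0x804028040100120)) (by (try dsimp only [M]); decide +kernel)
  have kalt8vT4 : Key M (cjS St talt8vT4) alt8vT4_key alt8vT4_fix := k1.keyT hTalt8vT4 (R_inv_of hTalt8vT4 (exists_R va (c := (nat_lit 0x1008010480402002)) (by (try dsimp only [M]); decide +kernel)) (by (try dsimp only [M]); decide +kernel)) _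
  obtain ⟨talt8vT5, hTalt8vT5⟩ := exists_R va (c := (nat_lit 0x2010080402400180)) (by (try dsimp only [M]); decide +kernel)
  have kalt8vT5 : Key M (cjS St talt8vT5) alt8vT5_key alt8vT5_fix := k1.keyT hTalt8vT5 (R_inv_of hTalt8vT5 (exists_R va (c := (nat_lit 0x104804020100802)) (by (try dsimp only [M]); decide +kernel)) (by (try dsimp only [M]); decide +kernel)) _
  obtain ⟨talt8vT6, hTalt8vT6⟩ := exists_R va (c := (nat_lit 0x402804020080110)) (by (try dsimp only [M]); decide +kernel)
  have kalt8vT6 : Key M (cjS St talt8vT6) alt8vT6_key alt8vT6_fix := k1.keyT hTalt8vT6 (R_inv_of hTalt8vT6 (exists_R va (c := (nat_lit 0x2010080104804002)) (by (try dsimp only [M]); decide +kernel)) (by (try dsimp only [M]); decide +kernel)) _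
  have galt8vT1 : ∀ c ∈ alt8vT1_g, M.In ⊤ c := valid_sub va (by (try dsimp only [M]); decide +kernel)
  have galt8vT2 := LvD.valid_next (D := alt8vT1) galt8vT1 alt8vT1_ok alt8vT1_next
  have lalt8vT1 := LvD.le_next (D := alt8vT1) galt8vT1 alt8vT1_ok alt8vT1_next
  have galt8vT3 := LvD.valid_next (D := alt8vT2) galt8vT2 alt8vT2_ok alt8vT2_next
  have lalt8vT2 := LvD.le_next (D := alt8vT2) galt8vT2 alt8vT2_ok alt8vT2_next
  have galt8vT4 := LvD.valid_next (D := alt8vT3) galt8vT3 alt8vT3_ok alt8vT3_next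
  have lalt8vT3 := LvD.le_next (D := alt8vT3) galt8vT3 alt8vT3_ok alt8vT3_next
  have galt8vT5 := LvD.valid_next (D := alt8vT4) galt8vT4 alt8vT4_ok alt8vT4_next
  have lalt8vT4 := LvD.le_next (D := alt8vT4) galt8vT4 alt8vT4_ok alt8vT4_next
  have galt8vT6 := LvD.valid_next (D := alt8vT5) galt8vT5 alt8vT5_ok alt8vT5_next
  have lalt8vT5 := LvD.le_next (D := alt8vT5) galt8vT5 alt8vT5_ok alt8vT5_next
  have galt8vT7 := LvD.valid_next (D := alt8vT6) galt8vT6 alt8vT6_ok alt8vT6_next
  have lalt8vT6 := LvD.le_next (D := alt8vT6) galt8vT6 alt8vT6_ok alt8vT6_next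
  have calt8vT7 : 1 ≤ Nat.card (M.cl alt8vT7_g) := Nat.card_pos
  have calt8vT6 : 3 ≤ Nat.card (M.cl alt8vT6_g) := le_trans (by (try dsimp only [M]); decide +kernel) (LvD.lower (D := alt8vT6) galt8vT6 alt8vT6_ok calt8vT7 lalt8vT6 kalt8vT6 alt8vT6_fx alt8vT6_k)
  have calt8vT5 : 12 ≤ Nat.card (M.cl alt8vT5_g) := le_trans (by (try dsimp only [M]); decide +kernel) (LvD.lower (D := alt8vT5) galt8vT5 alt8vT5_ok calt8vT6 lalt8vT5 kalt8vT5 alt8vT5_fx alt8vT5_k)
  have calt8vT4 : 60 ≤ Nat.card (M.cl alt8vT4_g) := le_trans (by (try dsimp only [M]); decide +kernel) (LvD.lower (D := alt8vT4) galt8vT4 alt8vT4_ok calt8vT5 lalt8vT4 kalt8vT4 alt8vT4_fx alt8vT4_k)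
  have calt8vT3 : 360 ≤ Nat.card (M.cl alt8vT3_g) := le_trans (by (try dsimp only [M]); decide +kernel) (LvD.lower (D := alt8vT3) galt8vT3 alt8vT3_ok calt8vT4 lalt8vT3 kalt8vT3 alt8vT3_fx alt8vT3_k)
  have calt8vT2 : 2520 ≤ Nat.card (M.cl alt8vT2_g) := le_trans (by (try dsimp only [M]); decide +kernel) (LvD.lower (D := alt8vT2) galt8vT2 alt8vT2_ok calt8vT3 lalt8vT2 kalt8vT2 alt8vT2_fx alt8vT2_k)
  have calt8vT1 : 20160 ≤ Nat.card (M.cl alt8vT1_g) := le_trans (by (try dsimp only [M]); decide +kernel) (LvD.lower (D := alt8vT1) galt8vT1 alt8vT1_ok calt8vT2 lalt8vT1 kalt8vT1 alt8vT1_fx alt8vT1_k)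
  exact calt8vT1

theorem alt8v_top {G : Type*} [Group G] [Finite G] {ρ : G →* Matrix (Fin 8) (Fin 8) (ZMod 2)} {hρ : Function.Injective ρ}
    (hv : ∀ c ∈ alt8_g, (a2_8.model ρ hρ).In ⊤ c) (hN : Nat.card G = 20160) : (a2_8.model ρ hρ).cl alt8_g = ⊤ :=
  let ⟨_, k⟩ := a2_8.keyP' ρ hρ _ _ (by decide +kernel)
  Subgroup.eq_top_of_le_card _ (hN.le.trans (alt8v_low _ rfl rfl rfl hv k))

theorem alt8_valid : ∀ c ∈ alt8_g, (altM a2_8).In ⊤ c :=
  altM_in _ [Equiv.swap 0 1 * Equiv.swap 1 2, Equiv.swap 1 2 * Equiv.swap 2 3 * Equiv.swap 3 4 * Equiv.swap 4 5 * Equiv.swap 5 6 * Equiv.swap 6 7] (by simp) (by decide +kernel)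
theorem alt8_card : Nat.card (alternatingGroup (Fin 8)) = 20160 := by
  rw [nat_card_alternatingGroup]; simp [Nat.factorial]
theorem alt8_top : (altM a2_8).cl alt8_g = ⊤ := alt8v_top alt8_valid alt8_card

end H29
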