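import Cfsg.Agent.H29.Gr
import Cfsg.Agent.H29.Ico4
import Cfsg.Agent.H17.Square
import Cfsg.Agent.H17.Central
import Cfsg.Prelude.Def_DegreeGraph

set_option autoImplicit false
set_option linter.style.haveILetI false
set_option linter.style.longLine false

/-! Sums over the group of a chain; the complex representation of degree six of `2.J₂`; degrees `6`, `14`, `21`. -/

namespace H29

open Subgroup Cfsg H17 Quaternion Matrix Cfsg.Spor Ic
open scoped ComplexConjugate

section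
variable {G A : Type*} [Group G] [Group A]

/-- The sum of `f` over `pre * g` for all `g` in the group of a chain. -/
noncomputable def sumC (mul : ℕ → ℕ → ℕ) (f : ℕ → ℕ) (ls : List Lv) : ℕ → ℕ :=
  List.rec (motive := fun _ => ℕ → ℕ) f
    (fun L _ ih x => sumR (fun j => force (L.U j) fun u => force (mul x u) ih) 0 L.n) ls

theorem Chain.sumC_spec {M : Model G} {K : Subgroup G} {ls : List Lv} (h : Chain M K ls) {f : ℕ → ℕ} {F : G → ℕ}
    (hf : ∀ c g, M.R c g → f c = F g) : ord ls ≤ Nat.card K → ∀ [Fintype K] {x : ℕ} {a : G}, M.R x a →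
      sumC M.mul f ls x = ∑ g : K, F (a * g) := by
  induction h with
  | nil => intro _ _ x a hx; rw [Fintype.sum_subsingleton _ 1]; exact (hf x a hx).trans (by simp)
  | @cons H K L ls u hH hle h0 hu _ hc ih =>
    intro hK _ x a hx
    haveI := hH.finite
    haveI := Fintype.ofFinite H
    have h1 : L.n * ord ls ≤ L.n * Nat.card H := (by simpa [ord] using hK : L.n * ord ls ≤ _).trans (card_le_of_cover hc).2
    let e : Fin L.n × H → K := fun y => ⟨u y.1 * y.2, K.mul_mem (hu _ y.1.2).1 (hle y.2.2)⟩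
    have he : Function.Bijective e := Function.Surjective.bijective_of_nat_card_le (fun g => by
      obtain ⟨j, hj, hm⟩ := hc g g.2
      exact ⟨(⟨j, hj⟩, ⟨_, hm⟩), Subtype.ext (by simp [e])⟩) (by
      rw [Nat.card_prod, Nat.card_fin]
      exact (Nat.mul_le_mul_left _ hH.card_le).trans (by simpa [ord] using hK))
    rw [← he.sum_comp, Fintype.sum_prod_type]
    refine (sumR_eq _ _ _).trans ((Finset.sum_range _).trans (Finset.sum_congr rfl fun j _ => ?_))
    simp only [force_eq, zero_add, e, ← mul_assoc]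
    exact ih (Nat.le_of_mul_le_mul_left h1 h0) (M.R_mul hx (hu _ j.2).2.1)

variable {M : Model G} {N : Model A} {s mk one : ℕ} {hs : ∀ a g, M.R a g → a < 2 ^ s}
  {hmk : Nat.beq mk (2 ^ s - 1) = true} {hone : Nat.beq one (M.one + N.one <<< s) = true}

theorem graph_equiv [Finite G] {L g a : List ℕ} {ls : List Lv} (hg : ∀ c ∈ g, M.In ⊤ c) (ha : ∀ c ∈ a, N.In ⊤ c)
    (h : prOK s mk L g a = true)
    (hch : (∀ c ∈ L, (M.prod N s mk one hs hmk hone).In ⊤ c) →
      Chain (M.prod N s mk one hs hmk hone) ((M.prod N s mk one hs hmk hone).cl L) ls)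
    (hK : M.cl g = ⊤) (hc : ord ls ≤ Nat.card G) :
    ∃ D, Chain (M.prod N s mk one hs hmk hone) D ls ∧ Nonempty (D ≃* G) := by
  simp only [prOK, band_iff] at h
  obtain ⟨⟨l1, l2⟩, h⟩ := h
  have l1 := Nat.eq_of_beq_eq_true l1
  have l2 := Nat.eq_of_beq_eq_true l2
  set P := M.prod N s mk one hs hmk hone
  have hR : ∀ i < L.length, ∀ x y, P.R (lgetD 0 L i) (x, y) ↔ M.R (lgetD 0 g i) x ∧ N.R (lgetD 0 a i) y :=
    fun i hi x y => by
      have := all1_lt h i hi
      simp only [force_eq, band_iff] at this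
      rw [← Nat.eq_of_beq_eq_true this.1, ← Nat.eq_of_beq_eq_true this.2]; rfl
  have hL : ∀ c ∈ L, P.In ⊤ c := fun c hc => by
    obtain ⟨i, h, rfl⟩ := exists_lgetD 0 hc
    obtain ⟨x, _, hx⟩ := hg _ (lgetD_mem (l1 ▸ h))
    obtain ⟨y, _, hy⟩ := ha _ (lgetD_mem (l2 ▸ h))
    exact ⟨(x, y), trivial, (hR i h x y).2 ⟨hx, hy⟩⟩
  haveI := (hch hL).finite
  refine ⟨_, hch hL, ⟨MulEquiv.ofBijective ((MonoidHom.fst G A).comp (P.cl L).subtype)
    (Function.Surjective.bijective_of_nat_card_le (MonoidHom.range_eq_top.1 ?_) ((hch hL).card_le.trans hc))⟩⟩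
  refine top_le_iff.1 (hK ▸ Model.cl_le' fun c hc x hx => ?_)
  obtain ⟨i, h, rfl⟩ := exists_lgetD 0 hc
  obtain ⟨y, _, hy⟩ := ha _ (lgetD_mem (l2 ▸ l1 ▸ h : i < a.length))
  exact ⟨⟨(x, y), Model.mem_cl (lgetD_mem (l1 ▸ h)) ((hR i (l1 ▸ h) x y).2 ⟨hx, hy⟩)⟩, rfl⟩

/-- The sum of the diagonal fields. -/
noncomputable def trC (w mk n c : ℕ) : ℕ := sum1 (fun i => pget c w mk (Nat.mul (Nat.succ n) i)) 0 n

theorem trC_code {p n w : ℕ} [NeZero p] (hw : p ≤ 2 ^ w) (B : Matrix (Fin n) (Fin n) (ZMod p)) :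
    (trC w (2 ^ w - 1) n (code w B) : ZMod p) = B.trace := by
  rw [trC, sum1_eq, Finset.sum_range, Nat.cast_sum, Matrix.trace]
  refine Finset.sum_congr rfl fun i _ => ?_
  have h1 : (n + 1) * i < n * n := by nlinarith [i.2]
  have h2 := pk_dig (w := w) (m := n * n) (f := fun t => ent B (t % n) (t / n)) (fun t _ => (ent_lt B _ _).trans_le hw) h1
  have h3 : (n + 1) * i = i + n * i := by ring
  have h0 : 0 < n := i.pos
  rw [← matN_flat] at h2
  refine (congrArg Nat.cast ((by simp only [zero_add]; rfl : _ = _).trans h2)).trans ?_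
  rw [h3, Nat.add_mul_mod_self_left, Nat.add_mul_div_left _ _ h0, Nat.mod_eq_of_lt i.2, Nat.div_eq_of_lt i.2, zero_add,
    ent_fin, ZMod.natCast_zmod_val]
  rfl

theorem deg_three [Fintype G] {χ : G → ℂ} (h : IsCharacter G χ) (h6 : χ 1 = 6) (hr : ∀ g, conj (χ g) = χ g)
    (hN : Nat.card G = 6048) (h1 : ∀ m : ℕ, ∑ g, χ g ^ 2 = (6048 * m : ℕ) → m % 101 = 1)
    (h2 : ∀ m : ℕ, ∑ g, χ g ^ 4 = (6048 * m : ℕ) → m % 101 = 3) :
    6 ∈ charDegrees G ∧ 14 ∈ charDegrees G ∧ 21 ∈ charDegrees G := by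
  have key : ∀ {φ : G → ℂ} {k m : ℕ}, (∀ g, φ g * conj (φ g) = χ g ^ k) → classInner φ φ = m → ∑ g, χ g ^ k = (6048 * m : ℕ) :=
    fun e hm => by
      simp only [classInner, e, hN] at hm
      push_cast at hm ⊢
      rw [← hm]; ring
  have md : ∀ {φ : G → ℂ} {n : ℕ}, IsIrrCharacter G φ → φ 1 = n → n ∈ charDegrees G := fun a b =>
    ⟨⟨_, a⟩, by simp [charDegree, b]⟩
  have hb : ∀ g, ‖χ g‖ ^ 2 ≤ 36 := fun g => by
    have := h.norm_le g
    rw [h6] at this
    norm_num at this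
    nlinarith [norm_nonneg (χ g)]
  obtain ⟨m, hm⟩ := h.inner_nat h
  have a1 := h1 m (key (fun g => by rw [hr, sq]) hm)
  rw [classInner_self_eq, ← Complex.ofReal_natCast, Complex.ofReal_inj, hN] at hm
  have a2 : m = 1 := by
    have := Finset.sum_le_card_nsmul Finset.univ _ _ fun g _ => hb g
    rw [Finset.card_univ, ← Nat.card_eq_fintype_card, hN] at this
    have : (m : ℝ) ≤ 36 := by rw [← hm]; norm_num at this ⊢; linarith
    have : m ≤ 36 := by exact_mod_cast this
    omega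
  subst a2
  have i1 : classInner χ χ = 1 := by rw [classInner_self_eq, hN, hm]; simp
  obtain ⟨m, hm'⟩ := (h.mul h).inner_nat (h.mul h)
  have a3 := h2 m (key (fun g => by rw [Pi.mul_apply, map_mul, hr]; ring) hm')
  have a4 : m = 3 := by
    rw [classInner_self_eq, ← Complex.ofReal_natCast, Complex.ofReal_inj, hN] at hm'
    have : ∑ g, ‖(χ * χ) g‖ ^ 2 ≤ ∑ g, 36 * ‖χ g‖ ^ 2 := Finset.sum_le_sum fun g _ => by
      rw [Pi.mul_apply, norm_mul, mul_pow]; exact mul_le_mul_of_nonneg_right (hb g) (sq_nonneg _)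
    rw [← Finset.mul_sum] at this
    have : (m : ℝ) ≤ 36 := by rw [← hm']; norm_num at this hm ⊢; linarith
    have : m ≤ 36 := by exact_mod_cast this
    omega
  subst a4
  obtain ⟨S, T, hS, hT, e1, e2⟩ := h.exists_sym_alt
  have s1 : S 1 = (21 : ℕ) := by
    have := e2 1
    rw [one_mul] at this
    push_cast; linear_combination (-1 / 2) * (e1 1 + this) + 1 / 2 * (χ 1 + 7) * h6
  have t1 : T 1 = (15 : ℕ) := by push_cast at s1 ⊢; linear_combination -e1 1 - s1 + (χ 1 + 6) * h6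
  have e3 : χ * χ = S + T := funext fun g => (sq _).symm.trans (e1 g)
  obtain ⟨a, ha⟩ := hS.inner_nat hS
  obtain ⟨b, hb⟩ := hS.inner_nat hT
  obtain ⟨c, hc⟩ := hT.inner_nat hT
  obtain ⟨d, hd⟩ := hS.inner_nat isCharacter_one'
  obtain ⟨e, he⟩ := hT.inner_nat isCharacter_one'
  have b1 : a + 2 * b + c = 3 := by
    rw [e3, classInner_add_left, classInner_add_right, classInner_add_right, hT.inner_comm hS, ha, hb, hc] at hm'
    exact_mod_cast (by linear_combination hm' : (a : ℂ) + 2 * b + c = 3)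
  have b2 : d + e = 1 := by
    have : classInner (χ * χ) 1 = 1 := by rw [classInner_mul_left, ← i1]; congr 1; ext g; simp [hr]
    rw [e3, classInner_add_left, hd, he] at this
    exact_mod_cast this
  have b3 : a ≠ 0 := fun e => by
    rw [e, Nat.cast_zero, classInner_self_eq_zero] at ha; rw [ha] at s1; simp at s1
  have b4 : c ≠ 0 := fun e => by
    rw [e, Nat.cast_zero, classInner_self_eq_zero] at hc; rw [hc] at t1; simp at t1
  have b5 : c ≠ 1 := fun e => by
    have := (hT.isIrr_of_norm_one (by rw [hc, e]; simp)).degree_dvd_card t1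
    rw [hN] at this; norm_num at this
  have iS := hS.isIrr_of_norm_one (by rw [ha, show a = 1 by omega]; simp)
  have b6 : d = 0 := by
    rw [iS.inner_of_ne isIrr_one' fun e => by rw [e] at s1; simp at s1] at hd
    exact_mod_cast hd.symm
  refine ⟨md (h.isIrr_of_norm_one i1) (by rw [h6]; simp), md (φ := T - 1) ((hT.isGen.sub isGen_one').isIrr_of_norm_one ?_ ?_) ?_, md iS s1⟩
  · rw [classInner_sub_left, classInner_sub_right, classInner_sub_right, isCharacter_one'.inner_comm hT, hc, he,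
      isIrr_one'.inner_self, show c = 2 by omega, show e = 1 by omega]
    norm_num
  · simp [t1]
  · simp [t1]; norm_num

end

section rep
variable {K : Type*} [CommRing K] (i h t : K)

def matG (q : ℍ[K]) : Matrix (Fin 2) (Fin 2) K :=
  !![q.re + i * q.imI, q.imJ + i * q.imK; -q.imJ + i * q.imK, q.re - i * q.imI]

theorem matG_mul (hi : i * i = -1) (a b : ℍ[K]) : matG i (a * b) = matG i a * matG i b := by
  ext k j
  fin_cases k <;> fin_cases j <;> simp [matG, Matrix.mul_apply, Fin.sum_univ_two]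
  · linear_combination (-(a.imI * b.imI + a.imK * b.imK)) * hi
  · linear_combination (a.imK * b.imI - a.imI * b.imK) * hi
  · linear_combination (a.imI * b.imK - a.imK * b.imI) * hi
  · linear_combination (-(a.imI * b.imI + a.imK * b.imK)) * hi
theorem matG_add (a b : ℍ[K]) : matG i (a + b) = matG i a + matG i b := by
  ext k j; fin_cases k <;> fin_cases j <;> simp [matG] <;> ring
theorem matG_smul (c : K) (a : ℍ[K]) : matG i (c • a) = c • matG i a := by
  ext k j; fin_cases k <;> fin_cases j <;> simp [matG] <;> ring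

def psiG (x : Ic) : Matrix (Fin 2) (Fin 2) K := h • matG i (D t x)

theorem psiG_add (x y : Ic) : psiG i h t (x.add y) = psiG i h t x + psiG i h t y := by
  rw [psiG, D_add, matG_add, smul_add]; rfl

noncomputable def rhoG (f : Equiv.Perm icoLeech) : Matrix (Fin 3) (Fin 3) (Matrix (Fin 2) (Fin 2) K) :=
  of fun r s => h • psiG i h t (co ((f (ee s)).1 r)).cj

variable {i h t} (hi : i * i = -1) (hh : h * 2 = 1) (ht : t ^ 2 = t + 1)
include hi hh ht

theorem psiG_mul (x y : Ic) : psiG i h t (x.mul y) = psiG i h t x * psiG i h t y := by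
  rw [psiG, psiG, psiG, smul_mul_smul_comm, ← matG_mul i hi, D_mul ht, matG_smul, smul_smul, mul_assoc, hh, mul_one]

theorem rhoG_mul {f : Equiv.Perm icoLeech} (hf : f ∈ twoJ2) (g : Equiv.Perm icoLeech) :
    rhoG i h t (f * g) = rhoG i h t f * rhoG i h t g := by
  refine Matrix.ext fun r s => ?_
  have k := lin2 hf (g (ee s)) r
  have e : ∀ (x : icoLeech) t, x.1 t = (co (x.1 t)).emb := fun x t => (emb_co (x.2.1 t)).symm
  rw [Fin.sum_univ_three, two_mul, e (f _), e (g _) 0, e (g _) 1, e (g _) 2, e (f (ee 0)), e (f (ee 1)), e (f (ee 2))] at k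
  replace k := congrArg star k
  simp only [star_add, star_mul] at k
  simp only [← emb_cj] at k
  simp only [← emb_mul, ← emb_add] at k
  replace k := congrArg (psiG i h t) (emb_inj k)
  rw [psiG_add, psiG_add, psiG_add, psiG_mul hi hh ht, psiG_mul hi hh ht, psiG_mul hi hh ht] at k
  rw [Matrix.mul_apply, Fin.sum_univ_three]
  simp only [rhoG, of_apply, smul_mul_smul_comm, ← smul_add, ← k, Equiv.Perm.mul_apply, ← two_smul K, smul_smul, mul_assoc, hh,
    mul_one]

omit hi ht in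
theorem rhoG_one : rhoG i h t 1 = 1 := by
  refine Matrix.ext fun r s => ?_
  simp only [rhoG, of_apply, Equiv.Perm.one_apply, co_ee, psiG, D_cj, D_int]
  rw [Matrix.one_apply]
  split_ifs <;> refine Matrix.ext fun k j => ?_ <;> fin_cases k <;> fin_cases j <;> simp [matG, -Quaternion.coe_mul] <;>
    linear_combination (h * 2 + 1) * hh

noncomputable def rhoH : twoJ2 →* Matrix (Fin 6) (Fin 6) K :=
  ((Matrix.reindexAlgEquiv K K ix.symm).toRingEquiv.toRingHom.comp
    (Matrix.compRingEquiv (Fin 3) (Fin 2) K).toRingHom).toMonoidHom.comp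
    ⟨⟨fun f => rhoG i h t f, rhoG_one hh⟩, fun f g => rhoG_mul hi hh ht f.2 g⟩

omit hi hh ht in
/-- Four times the trace. -/
noncomputable def trJ (f : twoJ2) : ℤ√5 :=
  ∑ s, ⟨2 * (co ((f.1 (ee s)).1 s)).cj.p0 + (co ((f.1 (ee s)).1 s)).cj.q0, (co ((f.1 (ee s)).1 s)).cj.q0⟩

theorem trJ_eq (f : twoJ2) (e : (2 * t - 1) * (2 * t - 1) = ((5 : ℤ) : K)) :
    Zsqrtd.lift ⟨2 * t - 1, e⟩ (trJ f) = 4 * (rhoH hi hh ht f).trace := by
  have : (rhoH hi hh ht f).trace = ∑ x : Fin 3 × Fin 2, rhoG i h t f x.1 x.1 x.2 x.2 :=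
    Fintype.sum_equiv ix _ _ fun _ => rfl
  rw [this, trJ, map_sum, Fintype.sum_prod_type, Finset.mul_sum]
  refine Finset.sum_congr rfl fun s _ => ?_
  simp [rhoG, psiG, matG, D_re]
  generalize (co ((f.1 (ee s)).1 s)).cj = x
  linear_combination (-2 * (h * 2 + 1) * (x.p0 + x.q0 * t)) * hh

end rep

theorem deg_twoJ2 {G : Type*} [Group G] [Fintype G] (φ : G →* twoJ2) (hN : Nat.card G = 6048)
    (h1 : ∑ g, (rho (φ g)).trace ^ 2 = 6048) (h2 : ∑ g, (rho (φ g)).trace ^ 4 = 3 * 6048) :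
    6 ∈ charDegrees G ∧ 14 ∈ charDegrees G ∧ 21 ∈ charDegrees G := by
  have c1 : ((tau : ℝ) : ℂ) ^ 2 = tau + 1 := by exact_mod_cast tau_sq
  have c2 : (2 * ((tau : ℝ) : ℂ) - 1) * (2 * tau - 1) = ((5 : ℤ) : ℂ) := by push_cast; linear_combination 4 * c1
  let ρ := rhoH (h := (1 / 2 : ℂ)) Complex.I_mul_I (by norm_num) c1
  have e1 : ∀ f, Zsqrtd.lift ⟨_, c2⟩ (trJ f) = 4 * (ρ f).trace := fun f => trJ_eq _ _ _ f c2
  have e2 : ∀ f, Zsqrtd.lift (R := K) ⟨2 * 23 - 1, by decide⟩ (trJ f) = 4 * (rho f).trace := fun f =>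
    trJ_eq (i := 10) (h := 51) (by decide) (by decide) (by decide) f _
  have inj := Zsqrtd.lift_injective ⟨_, c2⟩ fun n hn => by
    have : n ≤ 2 ∧ -2 ≤ n := by constructor <;> nlinarith
    obtain ⟨a, b⟩ := this
    interval_cases n <;> omega
  have key : ∀ k m : ℕ, ∑ g, (ρ (φ g)).trace ^ k = (6048 * m : ℕ) → 4 ^ k * ∑ g, (rho (φ g)).trace ^ k = 4 ^ k * (6048 * m : ℕ) :=
    fun k m h => by
      have := congrArg (Zsqrtd.lift (R := K) ⟨2 * 23 - 1, by decide⟩)
        (inj (a₁ := ∑ g, trJ (φ g) ^ k) (a₂ := 4 ^ k * (6048 * m : ℕ)) (by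
          simp only [map_sum, map_pow, e1, mul_pow, ← Finset.mul_sum, h, map_mul, map_natCast, map_ofNat]))
      simpa only [map_sum, map_pow, e2, mul_pow, ← Finset.mul_sum, map_mul, map_natCast, map_ofNat] using this
  have h0 : (101 : K) = 0 := rfl
  have hm : ∀ (m r : ℕ), (m : K) = r → m % 101 = r % 101 := fun m r h => (ZMod.natCast_eq_natCast_iff' m r 101).1 h
  refine deg_three (χ := fun g => (ρ (φ g)).trace) ⟨6, (Matrix.toLinAlgEquiv' (R := ℂ)).toMonoidHom.comp (ρ.comp φ),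
    funext fun g => Matrix.trace_toLin'_eq _⟩ (by simp) (fun g => ?_) hN (fun m h => hm m 1 ?_) fun m h => hm m 3 ?_
  · refine mul_left_cancel₀ (show (4 : ℂ) ≠ 0 by norm_num) ?_
    rw [← e1, ← map_ofNat conj 4, ← map_mul, ← e1]
    simp [Complex.conj_ofReal, map_ofNat]
  · have := key 2 m h
    rw [h1] at this
    push_cast at this ⊢
    linear_combination (-91 : K) * this - (m - 1) * 87187 * h0
  · have := key 4 m h
    rw [h2] at this
    push_cast at this ⊢
    linear_combination (-12 : K) * this - (m - 3) * 183955 * h0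

end H29
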