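import Cfsg.Agent.H29.LM2

set_option autoImplicit false
set_option linter.style.haveILetI false

/-! The field with sixteen elements as matrices over `GF(2)`. -/

namespace H29

open Matrix

def blk16 (c i j : ℕ) : ℕ := 0x731ff73e3187b5a65adbdefa18439c62ef7d6b5cade529c4c6b9429884210000 / 2 ^ (16 * (c % 16) + 4 * i + j) % 2

theorem exists_fm16 {F : Type*} [Field F] [Fintype F] (hF : Fintype.card F = 16) : Nonempty (FM F 2 4 blk16) := by
  have h2 : (2 : F) = 0 := cast_eq_zero_of_card (p := 2) (k := 4) hF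
  haveI : CharP F 2 := (CharP.charP_iff_prime_eq_zero Nat.prime_two).2 h2
  obtain ⟨θ, hθ⟩ : ∃ θ : F, θ ^ 4 = θ + 1 := by
    obtain ⟨g, h1, h3⟩ := exists_root_of_card (n := 15) hF
    have h5 := sub_ne_zero.2 (h3 5 (by norm_num) (by norm_num))
    have h6 := sub_ne_zero.2 (h3 3 (by norm_num) (by norm_num))
    have h4 : (g ^ 5 - 1) * ((g ^ 3 - 1) * ((g ^ 4 + g + 1) * (g ^ 4 + g ^ 3 + 1))) = 0 := by clear h3 h5 h6; grind
    rcases mul_eq_zero.1 ((mul_eq_zero.1 ((mul_eq_zero.1 h4).resolve_left h5)).resolve_left h6) with h | h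
    · exact ⟨g, by clear h3 h4 h5 h6 h1; grind⟩
    · exact ⟨g ^ 3 + g ^ 2, by clear h3 h4 h5 h6 h1; grind⟩
  letI : Algebra (ZMod 2) F := ZMod.algebra F 2
  have hli : LinearIndependent (ZMod 2) ![(1 : F), θ, θ ^ 2, θ ^ 3] := by
    rw [Fintype.linearIndependent_iff]
    intro g h
    have hz : ∀ x : ZMod 2, x = 0 ∨ x = 1 := by decide
    rw [Fin.sum_univ_four] at h
    simp only [Fin.forall_fin_succ, IsEmpty.forall_iff, and_true]
    show g 0 = 0 ∧ g 1 = 0 ∧ g 2 = 0 ∧ g 3 = 0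
    rcases hz (g 0) with h0 | h0 <;> rcases hz (g 1) with h1 | h1 <;> rcases hz (g 2) with h3 | h3 <;>
      rcases hz (g 3) with h4 | h4 <;> simp [h0, h1, h3, h4] at h ⊢ <;> grind
  have hfr : Fintype.card (Fin 4) = Module.finrank (ZMod 2) F := by
    have := Module.card_eq_pow_finrank (K := ZMod 2) (V := F)
    rw [hF, ZMod.card] at this
    simpa using Nat.pow_right_injective le_rfl (show 2 ^ 4 = _ from this)
  let b := basisOfLinearIndependentOfCardEqFinrank hli hfr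
  have hb0 : b 0 = 1 := by simp [b]
  have hb1 : b 1 = θ := by simp [b]
  have hb2 : b 2 = θ ^ 2 := by simp [b]
  have hb3 : b 3 = θ ^ 3 := by simp [b]
  have hφ : Algebra.leftMulMatrix b θ = !![0, 0, 0, 1; 1, 0, 0, 1; 0, 1, 0, 0; 0, 0, 1, 0] := by
    have e0 : θ * b 0 = b 1 := by rw [hb0, hb1, mul_one]
    have e1 : θ * b 1 = b 2 := by rw [hb1, hb2, sq]
    have e2 : θ * b 2 = b 3 := by rw [hb2, hb3]; ring
    have e3 : θ * b 3 = b 0 + b 1 := by rw [hb0, hb1, hb3]; linear_combination hθ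
    ext i k
    rw [Algebra.leftMulMatrix_eq_repr_mul]
    fin_cases k
    · simp only [Fin.zero_eta, e0, b.repr_self]; fin_cases i <;> simp
    · simp only [Fin.mk_one, e1, b.repr_self]; fin_cases i <;> simp
    · simp only [Fin.reduceFinMk, e2, b.repr_self]; fin_cases i <;> simp
    · simp only [Fin.reduceFinMk, e3, map_add, b.repr_self]; fin_cases i <;> simp
  refine ⟨⟨(Algebra.leftMulMatrix b).toRingHom,
    fun c => (c % 16 % 2 : ℕ) + (c % 16 / 2 % 2 : ℕ) * θ + (c % 16 / 4 % 2 : ℕ) * θ ^ 2 + (c % 16 / 8 : ℕ) * θ ^ 3,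
    fun c i j => ?_, fun _ _ _ => Nat.mod_lt _ two_pos⟩⟩
  simp only [map_add, map_mul, map_natCast, map_pow]
  erw [hφ]
  have : ∀ r : Fin 16, ∀ C : Matrix (Fin 4) (Fin 4) (ZMod 2), C = !![0, 0, 0, 1; 1, 0, 0, 1; 0, 1, 0, 0; 0, 0, 1, 0] →
      ((r.1 % 2 : ℕ) : Matrix (Fin 4) (Fin 4) (ZMod 2)) + ((r.1 / 2 % 2 : ℕ) : Matrix (Fin 4) (Fin 4) (ZMod 2)) * C +
        ((r.1 / 4 % 2 : ℕ) : Matrix (Fin 4) (Fin 4) (ZMod 2)) * C ^ 2 +
        ((r.1 / 8 : ℕ) : Matrix (Fin 4) (Fin 4) (ZMod 2)) * C ^ 3 = blkM 2 4 blk16 r := by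
    rintro r _ rfl; revert r; decide +kernel
  rw [this ⟨c % 16, Nat.mod_lt _ (by norm_num)⟩ _ rfl, blkM, of_apply, blk16, blk16, Nat.mod_mod]

end H29
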