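import Cfsg.Agent.H29.J4m1
import Cfsg.Agent.H28.Dm3
import Cfsg.Agent.H9.Basic

/-! Small 2-groups listed element by element: counting, subgroups of index two, automorphisms of odd order. -/

set_option autoImplicit false

namespace H29.Lf
open Subgroup H28

variable {G : Type*} [Group G] {M : Model G} {K : Subgroup G} {E : List ℕ}

theorem card_mem (h : E.Nodup) : Nat.card {c // c ∈ E} = E.length := by
  rw [← Nat.card_congr (h.getEquiv E)]; simp

theorem code_eq (hq : M.eqb = Nat.beq) {c d : ℕ} {g : G} (hc : M.R c g) (hd : M.R d g) : c = d :=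
  Nat.eq_of_beq_eq_true (hq ▸ (M.eqb_iff hc hd).2 rfl)

theorem ex_inj (hq : M.eqb = Nat.beq) (h : ∀ c ∈ E, M.In K c) :
    ∃ f : {c // c ∈ E} → K, Function.Injective f ∧ ∀ c, M.R c.1 (f c) := by
  choose g h1 h2 using h
  exact ⟨fun c => ⟨g c.1 c.2, h1 _ _⟩, fun c d e => Subtype.ext (code_eq hq (h2 _ c.2)
    (M.R_congr (h2 _ d.2) (congrArg Subtype.val e).symm)), fun c => h2 _ _⟩

theorem len_le [Finite K] (hq : M.eqb = Nat.beq) (hn : E.Nodup) (h : ∀ c ∈ E, M.In K c) : E.length ≤ Nat.card K :=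
  let ⟨f, hf, _⟩ := ex_inj hq h
  card_mem hn ▸ Nat.card_le_card_of_injective f hf

theorem cover [Finite K] (hq : M.eqb = Nat.beq) (hn : E.Nodup) (h : ∀ c ∈ E, M.In K c) (hc : Nat.card K ≤ E.length) :
    ∀ g ∈ K, ∃ c ∈ E, M.R c g := fun g hg => by
  obtain ⟨f, hf, h2⟩ := ex_inj hq h
  obtain ⟨c, hc⟩ := (hf.bijective_of_nat_card_le (card_mem hn ▸ hc)).2 ⟨g, hg⟩
  exact ⟨c.1, c.2, M.R_congr (h2 c) (congrArg Subtype.val hc)⟩

theorem count (hq : M.eqb = Nat.beq) (hn : E.Nodup) (h : ∀ c ∈ E, M.In ⊤ c) (hc : ∀ g, ∃ c ∈ E, M.R c g)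
    {p : G → Prop} {q : ℕ → Bool} (hp : ∀ c g, M.R c g → (p g ↔ q c = true)) : Nat.card {g // p g} = E.countP q := by
  obtain ⟨f, hf, h2⟩ := ex_inj (E := E.filter q) hq fun c hc => h c (List.mem_filter.1 hc).1
  rw [List.countP_eq_length_filter, ← card_mem (hn.filter q)]
  refine (Nat.card_congr (Equiv.ofBijective (fun c => ⟨(f c).1, (hp _ _ (h2 c)).2 (List.mem_filter.1 c.2).2⟩)
    ⟨fun c d e => hf (Subtype.ext (congrArg (fun x : {g // p g} => x.1) e)), fun g => ?_⟩)).symm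
  obtain ⟨c, c1, c2⟩ := hc g.1
  exact ⟨⟨c, List.mem_filter.2 ⟨c1, (hp _ _ c2).1 g.2⟩⟩, Subtype.ext (M.unique (h2 _) c2)⟩

open Classical in
/-- An invariant of elements under automorphisms. -/
noncomputable def Iv (s : G) : ℕ :=
  16 * Nat.card {y // y * s = s * y} + if s * s = 1 then 2 else if s * s * (s * s) = 1 then 4 else 8

theorem Iv_map (β : MulAut G) (s : G) : Iv (β s) = Iv s := by
  unfold Iv
  rw [← Nat.card_congr (β.toEquiv.subtypeEquiv (p := fun y => y * s = s * y) (q := fun y => y * β s = β s * y)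
    fun y => by change _ ↔ β y * β s = β s * β y; rw [← map_mul, ← map_mul, β.injective.eq_iff])]
  have e : ∀ x, β x = 1 ↔ x = 1 := fun x => β.map_eq_one_iff
  rw [← map_mul, ← map_mul, e, e]

noncomputable def iv (mul : ℕ → ℕ → ℕ) (one : ℕ) (E : List ℕ) (c : ℕ) : ℕ :=
  16 * E.countP (fun d => Nat.beq (mul d c) (mul c d)) +
    force (mul c c) fun x => cond (Nat.beq x one) 2 (cond (Nat.beq (mul x x) one) 4 8)

theorem iv_eq (hq : M.eqb = Nat.beq) (hn : E.Nodup) (h : ∀ c ∈ E, M.In ⊤ c) (hc : ∀ g, ∃ c ∈ E, M.R c g)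
    {c : ℕ} {s : G} (hs : M.R c s) : Iv s = iv M.mul M.one E c := by
  have e1 := M.eqb_iff (M.R_mul hs hs) M.R_one
  have e2 := M.eqb_iff (M.R_mul (M.R_mul hs hs) (M.R_mul hs hs)) M.R_one
  rw [hq] at e1 e2
  rw [Iv, iv, force_eq, count hq hn h hc (q := fun d => Nat.beq (M.mul d c) (M.mul c d)) fun d y hy =>
    hq ▸ (M.eqb_iff (M.R_mul hy hs) (M.R_mul hs hy)).symm]
  simp only [← e1, ← e2, Bool.cond_eq_ite]

theorem ex_two [Finite G] (hG : IsPGroup 2 G) {F : Subgroup G} (hF : F ≠ ⊤) : ∃ N : Subgroup G, F ≤ N ∧ N.index = 2 :=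
  let ⟨N, h1, h2⟩ := (eq_top_or_exists_le_coatom F).resolve_left hF
  ⟨N, h2, H9.index_of_isCoatom hG h1⟩

theorem aut_one [Finite G] (hG : IsPGroup 2 G)
    (h : ∀ N : Subgroup G, N.index = 2 → ∃ a k, Nat.card {s : G // Iv s = a} = 2 ^ k ∧ ∀ s, Iv s = a → s ∉ N)
    (α : MulAut G) (ho : (orderOf α).Coprime 2) : α = 1 := by
  by_contra hne
  have h1 : orderOf α ≠ 1 := fun e => hne (orderOf_eq_one_iff.1 e)
  have hp := Nat.minFac_prime h1
  have hd := Nat.minFac_dvd (orderOf α)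
  have : Fact (orderOf α).minFac.Prime := ⟨hp⟩
  have hβ := orderOf_pow_orderOf_div (orderOf_pos α).ne' hd
  generalize α ^ (orderOf α / (orderOf α).minFac) = β at hβ
  obtain ⟨N, n1, n2⟩ := ex_two hG (F := β.toMonoidHom.eqLocus (MonoidHom.id G)) fun e => hp.ne_one (by
    rw [← hβ, orderOf_eq_one_iff]
    exact MulEquiv.ext fun x => (e ▸ mem_top x : x ∈ β.toMonoidHom.eqLocus (MonoidHom.id G)))
  obtain ⟨a, k, c1, c2⟩ := h N n2
  let X : SubMulAction (MulAut G) G := ⟨{s | Iv s = a}, fun γ _ hx => (Iv_map γ _).trans hx⟩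
  obtain ⟨x, hx⟩ := (IsPGroup.of_card (n := 1) (G := zpowers β) (p := (orderOf α).minFac)
    (by rw [Nat.card_zpowers, hβ, pow_one])).nonempty_fixed_point_of_prime_not_dvd_card X fun hd' => by
      have e : (orderOf α).minFac ∣ 2 := hp.dvd_of_dvd_pow (c1 ▸ hd')
      exact hp.one_lt.ne' (Nat.eq_one_of_dvd_coprimes ho hd e)
  exact c2 x.1 x.2 (n1 (congrArg Subtype.val (hx ⟨β, mem_zpowers β⟩)))

/-- Parity of a word. -/
def par (bs : List Bool) (w : List ℕ) : Bool := w.foldr (fun a r => xor (bs.getD a false) r) false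

theorem par_iff {N : Subgroup G} (hN : N.index = 2) {xs : List G} {bs : List Bool}
    (h : ∀ i, xs.getD i 1 ∈ N ↔ bs.getD i false = false) (w : List ℕ) : ev xs w ∈ N ↔ par bs w = false := by
  induction w with
  | nil => simp [ev_nil, par]
  | cons a w ih =>
    rw [ev_cons, mul_mem_iff_of_index_two hN, h, ih]
    change _ ↔ xor (bs.getD a false) (par bs w) = false
    cases bs.getD a false <;> cases par bs w <;> simp

theorem ex_bs (N : Subgroup G) {xs : List G} (hl : xs.length = 6) : ∃ b0 b1 b2 b3 b4 b5 : Bool,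
    ∀ i, xs.getD i 1 ∈ N ↔ [b0, b1, b2, b3, b4, b5].getD i false = false := by
  classical
  refine ⟨decide (xs.getD 0 1 ∉ N), decide (xs.getD 1 1 ∉ N), decide (xs.getD 2 1 ∉ N), decide (xs.getD 3 1 ∉ N),
    decide (xs.getD 4 1 ∉ N), decide (xs.getD 5 1 ∉ N), fun i => ?_⟩
  rcases i with _ | _ | _ | _ | _ | _ | i
  iterate 6 simp only [List.getD_cons_zero, List.getD_cons_succ, decide_eq_false_iff_not, not_not]
  rw [List.getD_eq_default _ _ (by omega)]
  simp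

noncomputable def cjk (mul : ℕ → ℕ → ℕ) (eqb : ℕ → ℕ → Bool) (u a b : ℕ) : Bool :=
  force u fun x => force a fun y => force b fun z => eqb (mul x y) (mul z x)

theorem cjk_spec {u a b : ℕ} {t s : G} (hu : M.In ⊤ u) (ha : M.R a t) (hb : M.R b s)
    (h : cjk M.mul M.eqb u a b = true) : ∃ g, g * t * g⁻¹ = s :=
  let ⟨g, _, hg⟩ := hu
  ⟨g, mul_inv_eq_iff_eq_mul.2 (M.eq_of (M.R_mul hg ha) (M.R_mul hb hg) h)⟩

end H29.Lf
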